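import Cfsg.Agent.H858.PI.Core

/-!
# S5717, Part I: the assemblies for `PSL`, `PSp`, `PSU` (task 4921)
-/

set_option autoImplicit false

namespace Cfsg.Agent.H858.PI

open Cfsg.Agent.H917.FP Cfsg.Agent.H830.B57 Cfsg.Agent.H254.BS.PI

theorem asm_PSL : Asm_PSL := by
  rintro ⟨C0, hC0, hS⟩ hN hcount hpos ⟨C1, hA⟩ hmono
  obtain ⟨c, hc⟩ := tbase_of hN hcount hpos C0 hC0
  refine ⟨c * (1 * C1) + 1, Nat.succ_pos _, fun d hd T _ _ _ hT hinv => ?_⟩
  obtain ⟨F, _, _, n, hn, hn2, ⟨e⟩⟩ := hT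
  let π : Matrix.SpecialLinearGroup (Fin n) F →* T :=
    e.symm.toMonoidHom.comp (QuotientGroup.mk' (Subgroup.center (Matrix.SpecialLinearGroup (Fin n) F)))
  have hπ : Function.Surjective π := e.symm.surjective.comp (QuotientGroup.mk'_surjective _)
  have hk : ∀ x, π x = 1 ↔ x ∈ Subgroup.center (Matrix.SpecialLinearGroup (Fin n) F) := fun x => by
    rw [← QuotientGroup.eq_one_iff]
    exact MulEquiv.map_eq_one_iff e.symm
  have h1 := hc (Matrix.SpecialLinearGroup (Fin n) F) T F (Fin n) (fun x => (x : Matrix (Fin n) (Fin n) F))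
    Subtype.val_injective (fun x hx => by
      obtain ⟨μ, hμ⟩ := hx
      rw [Subgroup.mem_center_iff]
      intro g
      apply Subtype.ext
      change g.1 * x.1 = x.1 * g.1
      have hμ' : x.1 = Matrix.scalar (Fin n) μ := hμ
      rw [hμ']
      exact (Matrix.scalar_commute μ (Commute.all μ) g.1).symm) π hπ hk (by rw [Fintype.card_fin]; omega)
    (hS F n hn hn2)
  rw [Fintype.card_fin] at h1
  have h2 : n ≤ C1 * d := hA F n d hd hn fun h => hinv (involves_of_equiv e h)
  exact mono_of hmono (exists_not_comm π hπ hk) h1 (by omega)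

theorem asm_PSp : Asm_PSp := by
  rintro ⟨C0, hC0, hS⟩ hN hcount hpos ⟨C1, hA⟩ hmono
  obtain ⟨c, hc⟩ := tbase_of hN hcount hpos C0 hC0
  refine ⟨c * (2 * C1) + 1, Nat.succ_pos _, fun d hd T _ _ _ hT hinv => ?_⟩
  obtain ⟨F, _, _, m, hm, hm2, ⟨e⟩⟩ := hT
  let π : Matrix.symplecticGroup (Fin m) F →* T :=
    e.symm.toMonoidHom.comp (QuotientGroup.mk' (Subgroup.center (Matrix.symplecticGroup (Fin m) F)))
  have hπ : Function.Surjective π := e.symm.surjective.comp (QuotientGroup.mk'_surjective _)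
  have hk : ∀ x, π x = 1 ↔ x ∈ Subgroup.center (Matrix.symplecticGroup (Fin m) F) := fun x => by
    rw [← QuotientGroup.eq_one_iff]
    exact MulEquiv.map_eq_one_iff e.symm
  have h1 := hc (Matrix.symplecticGroup (Fin m) F) T F (Fin m ⊕ Fin m)
    (fun x => (x : Matrix (Fin m ⊕ Fin m) (Fin m ⊕ Fin m) F))
    Subtype.val_injective (fun x hx => by
      obtain ⟨μ, hμ⟩ := hx
      rw [Subgroup.mem_center_iff]
      intro g
      apply Subtype.ext
      change g.1 * x.1 = x.1 * g.1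
      have hμ' : x.1 = Matrix.scalar (Fin m ⊕ Fin m) μ := hμ
      rw [hμ']
      exact (Matrix.scalar_commute μ (Commute.all μ) g.1).symm) π hπ hk
    (by rw [Fintype.card_sum, Fintype.card_fin]; omega) (hS F m hm hm2)
  rw [Fintype.card_sum, Fintype.card_fin] at h1
  have h2 : m ≤ C1 * d := hA F m d hd fun h => hinv (involves_of_equiv e h)
  exact mono_of hmono (exists_not_comm π hπ hk) h1 (by omega)

theorem asm_PSU : Asm_PSU := by
  rintro ⟨C0, hC0, hS⟩ hN hcount hpos ⟨C1, hA⟩ hmono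
  obtain ⟨c, hc⟩ := tbase_of hN hcount hpos C0 hC0
  refine ⟨c * (1 * C1) + 1, Nat.succ_pos _, fun d hd T _ _ _ hT hinv => ?_⟩
  obtain ⟨F, _, _, n, q, hF, hn, hn2, ⟨e⟩⟩ := hT
  let π : Cfsg.SU n F q →* T := e.symm.toMonoidHom.comp (QuotientGroup.mk' (Subgroup.center (Cfsg.SU n F q)))
  have hπ : Function.Surjective π := e.symm.surjective.comp (QuotientGroup.mk'_surjective _)
  have hk : ∀ x, π x = 1 ↔ x ∈ Subgroup.center (Cfsg.SU n F q) := fun x => by
    rw [← QuotientGroup.eq_one_iff]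
    exact MulEquiv.map_eq_one_iff e.symm
  have h1 := hc (Cfsg.SU n F q) T F (Fin n)
    (fun x => ((x : Matrix.SpecialLinearGroup (Fin n) F) : Matrix (Fin n) (Fin n) F))
    (Subtype.val_injective.comp Subtype.val_injective) (fun x hx => by
      obtain ⟨μ, hμ⟩ := hx
      rw [Subgroup.mem_center_iff]
      intro g
      apply Subtype.ext
      apply Subtype.ext
      change g.1.1 * x.1.1 = x.1.1 * g.1.1
      have hμ' : x.1.1 = Matrix.scalar (Fin n) μ := hμ
      rw [hμ']
      exact (Matrix.scalar_commute μ (Commute.all μ) g.1.1).symm) π hπ hk (by rw [Fintype.card_fin]; omega)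
    (hS F n q hF hn hn2)
  rw [Fintype.card_fin] at h1
  have h2 : n ≤ C1 * d := hA F n q d hF hd fun h => hinv (involves_of_equiv e h)
  exact mono_of hmono (exists_not_comm π hπ hk) h1 (by omega)

end Cfsg.Agent.H858.PI
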