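import Cfsg.Agent.H254.BS.PartI
import Cfsg.Agent.H830.B57.Inv

/-!
# S5717, Part I: from the strong bound for a matrix group `M` to `TBase` for the simple quotient `T = M / Z(M)`
-/

set_option autoImplicit false

namespace Cfsg.Agent.H858.PI

open Cfsg.Agent.H917.FP Cfsg.Agent.H830.B57 Cfsg.Agent.H254.BS.PI

/-- a simple central quotient is not commutative -/
theorem exists_not_comm {M T : Type} [Group M] [Group T] [Finite T] [IsSimpleGroup T] (π : M →* T)
    (hπ : Function.Surjective π) (hk : ∀ x, π x = 1 ↔ x ∈ Subgroup.center M) : ∃ a b : T, a * b ≠ b * a := by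
  by_contra h
  push Not at h
  let _ : CommGroup T := { (inferInstance : Group T) with mul_comm := h }
  have hcyc : IsCyclic T := IsSimpleGroup.isCyclic
  have h0 : IsMulCommutative M :=
    MonoidHom.isMulCommutative_of_isCyclic_of_ker_le_center π fun x hx => (hk x).1 hx
  have h1 : ∀ a b : M, a * b = b * a := h0.is_comm.comm
  obtain ⟨x, hx⟩ := exists_ne (1 : T)
  obtain ⟨a, rfl⟩ := hπ x
  exact hx ((hk a).2 (Subgroup.mem_center_iff.2 fun b => h1 b a))

/-- `TBase T 0` fails for noncommutative `T` -/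
theorem tbase_pos {T : Type} [Group T] (h : ∃ a b : T, a * b ≠ b * a) {k : ℕ} (hT : TBase T k) : 0 < k := by
  rcases Nat.eq_zero_or_pos k with rfl | hk
  · exfalso
    obtain ⟨a, b, hab⟩ := h
    have hne : (⊥ : Subgroup T) ≠ ⊤ := by
      intro h1
      have h2 : ∀ x : T, x = 1 := fun x => by
        have : x ∈ (⊥ : Subgroup T) := by rw [h1]; trivial
        exact Subgroup.mem_bot.1 this
      exact hab (by rw [h2 a, h2 b])
    obtain ⟨t, ht⟩ := hT ⊥ hne
    have h1 := ht (MulAut.conj a) (fun x => by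
      rw [Subgroup.mem_bot, Subgroup.mem_bot, MulEquiv.map_eq_one_iff]) fun j => j.elim0
    have h2 : MulAut.conj a b = b := by rw [h1]; rfl
    rw [MulAut.conj_apply, mul_inv_eq_iff_eq_mul] at h2
    exact hab h2
  · exact hk

/-- the fixed point ratio of a lift -/
theorem fpr_lift {M T : Type} [Group M] [Group T] (π : M →* T) (x : M) (Ω : Type) [MulAction T Ω] :
    @fpr M _ Ω (MulAction.compHom Ω π) {x} = fpr Ω {π x} := by
  unfold fpr
  congr 2
  refine Nat.card_congr (Equiv.subtypeEquivRight fun w => ?_)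
  constructor
  · intro h a ha
    rw [Set.mem_singleton_iff.1 ha]
    exact h x rfl
  · intro h a ha
    rw [Set.mem_singleton_iff.1 ha]
    exact h (π x) rfl

/-- **`TBase` from the strong bound upstairs** -/
theorem tbase_of (hN : T_tbase_of_strong) (hcount : T_count) (hpos : T_supp_pos) (C0 : ℕ) (hC0 : 0 < C0) :
    ∃ c : ℕ, ∀ (M T : Type) [Group M] [Group T] [Finite T] [IsSimpleGroup T] (F : Type) [Field F] [Fintype F]
      (ι : Type) [Fintype ι] [DecidableEq ι] (m : M → Matrix ι ι F), Function.Injective m →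
      (∀ x, (∃ μ : F, m x = Matrix.scalar ι μ) → x ∈ Subgroup.center M) → ∀ π : M →* T, Function.Surjective π →
      (∀ x, π x = 1 ↔ x ∈ Subgroup.center M) → 1 ≤ Fintype.card ι → Strong C0 M m →
      TBase T (c * Fintype.card ι) := by
  obtain ⟨c, hc⟩ := hN (max C0 2)
  refine ⟨c, ?_⟩
  intro M T _ _ _ _ F _ _ ι _ _ m hm hsc π hπ hk hι hS
  have hq : 2 ≤ Fintype.card F := Fintype.one_lt_card
  set C := max C0 2 with hC
  have hCC0 : C0 ≤ C := le_max_left _ _
  have hC2 : 2 ≤ C := le_max_right _ _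
  have hC0' : (0 : ℝ) < C0 := by exact_mod_cast hC0
  have hCC0' : (C0 : ℝ) ≤ C := by exact_mod_cast hCC0
  let σ : T → M := Function.surjInv hπ
  have hσ : ∀ t, π (σ t) = t := Function.surjInv_eq hπ
  have hσi : Function.Injective σ := Function.injective_surjInv hπ
  have hnc : ∀ t : T, t ≠ 1 → σ t ∉ Subgroup.center M := fun t ht h => ht (by rw [← hσ t]; exact (hk _).2 h)
  have hglob : ∀ (Ω : Type) [MulAction T Ω], (∀ ω : Ω, ∃ g : T, g • ω ≠ ω) →
      letI := MulAction.compHom Ω π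
      ∀ ω : Ω, ∃ g : M, g • ω ≠ ω := by
    intro Ω _ h ω
    obtain ⟨g, hg⟩ := h ω
    obtain ⟨x, rfl⟩ := hπ g
    exact ⟨x, hg⟩
  refine hc (Fintype.card F) (Fintype.card ι) hq hι T (exists_not_comm π hπ hk) (fun t => supp (m (σ t))) ?_ ?_ ?_ ?_
  · intro t ht
    by_contra h
    have h0 : supp (m (σ t)) = 0 := by omega
    exact hnc t ht (hsc _ (hpos F ι _ h0))
  · intro s
    have h1 : Nat.card {x : T // supp (m (σ x)) = s} ≤ Nat.card {A : Matrix ι ι F // supp A = s} :=
      Nat.card_le_card_of_injective (fun x : {x : T // supp (m (σ x)) = s} =>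
        (⟨m (σ x.1), x.2⟩ : {A : Matrix ι ι F // supp A = s})) fun a b hab =>
          Subtype.ext (hσi (hm (congrArg (fun x : {A : Matrix ι ι F // supp A = s} => x.1) hab)))
    refine (h1.trans (hcount F ι s)).trans (Nat.pow_le_pow_right (by omega) ?_)
    have h2 : 2 * Fintype.card ι ≤ C * Fintype.card ι := Nat.mul_le_mul_right _ hC2
    have h3 : 2 * Fintype.card ι * (s + 1) ≤ C * Fintype.card ι * (s + 1) := Nat.mul_le_mul_right _ h2
    nlinarith
  · intro t ht Ω _ _ hΩ
    let := MulAction.compHom Ω π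
    have h1 := hS.fix (σ t) (hnc t ht) Ω (hglob Ω hΩ)
    rw [fpr_lift, hσ] at h1
    have h2 : fpr Ω {t} ^ C ≤ fpr Ω {t} ^ C0 := pow_le_pow_of_le_one (fpr_nonneg Ω _) (fpr_le_one Ω _) hCC0
    refine le_trans (mul_le_mul_of_nonneg_right h2 (by positivity)) (h1.trans hCC0')
  · intro t ht Ω _ _ hΩ
    let := MulAction.compHom Ω π
    have h1 := hS.triv (σ t) (hnc t ht) Ω (hglob Ω hΩ)
    rw [fpr_lift, hσ] at h1
    have h2 : 1 / (C : ℝ) ≤ 1 / C0 := one_div_le_one_div_of_le hC0' hCC0'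
    linarith

/-- from `TBase T (c * N)`, `N ≤ b * (C * d)` -/
theorem mono_of (hmono : T_tbase_mono) {T : Type} [Group T] (hna : ∃ a b : T, a * b ≠ b * a) {c N b C d : ℕ}
    (h : TBase T (c * N)) (hN : N ≤ b * (C * d)) : TBase T ((c * (b * C) + 1) * d) := by
  refine hmono T _ _ ?_ (tbase_pos hna h) h
  calc c * N ≤ c * (b * (C * d)) := Nat.mul_le_mul_left _ hN
    _ ≤ (c * (b * C) + 1) * d := by nlinarith

end Cfsg.Agent.H858.PI
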